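import Cfsg.Agent.H6.HN.D2.B0
import Cfsg.Agent.H6.HN.D2.B1
import Cfsg.Agent.H6.HN.D2.B2
import Cfsg.Agent.H6.HN.D2.B3
import Cfsg.Agent.H6.HN.D2.B4
import Cfsg.Agent.H6.HN.D2.B5

set_option autoImplicit false
set_option maxRecDepth 100000
set_option Elab.async false

namespace Cfsg.H6.HN.D2

theorem hv {G : Type*} [Group G] {ev : ℕ → G} {H : Subgroup G} (h : D.Hyp ev H) :
    ∀ c < 204, D.Valid ev H (D.cl c) :=
  Dce.all_valid h (range_join (range_join (allR_range k0 (by norm_num : 0 + 40 = 40)) (range_join (allR_range k1 (by norm_num : 40 + 40 = 80)) (allR_range k2 (by norm_num : 80 + 40 = 120)))) (range_join (allR_range k3 (by norm_num : 120 + 40 = 160)) (range_join (allR_range k4 (by norm_num : 160 + 40 = 200)) (allR_range k5 (by norm_num : 200 + 4 = 204)))))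

theorem top : ⊤ ≤ gen H.ev (D.genW [0,1,2]) :=
  H.top.trans (gen_le_of_letChk (by decide +kernel))

def E : List (ℕ × ℕ) := [(1, 1408), (0, 1), (2, 2200), (3, 35200), (5, 123200), (6, 354816), (7, 739200), (8, 277200), (9, 5775)]

theorem hT {G : Type*} [Group G] {ev : ℕ → G} {H : Subgroup G} {θ : HN.H.Grp →* G}
    (M : D.Model ev HN.H.ev θ HN.H.φ HN.H.img 1408) (h : D.Hyp ev H) :
    ∀ i ∈ E.map Prod.fst, ∀ p, D.InU ev H θ (E.map Prod.fst) (evL ev (D.gw i) * θ p * ev D.T) :=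
  (List.forall_mem_cons.mpr ⟨Dce.fin_sound M h (hv h) f1, (List.forall_mem_cons.mpr ⟨Dce.fin_sound M h (hv h) f0, (List.forall_mem_cons.mpr ⟨Dce.fin_sound M h (hv h) f2, (List.forall_mem_cons.mpr ⟨Dce.fin_sound M h (hv h) f3, (List.forall_mem_cons.mpr ⟨Dce.fin_sound M h (hv h) f5, (List.forall_mem_cons.mpr ⟨Dce.fin_sound M h (hv h) f6, (List.forall_mem_cons.mpr ⟨Dce.fin_sound M h (hv h) f7, (List.forall_mem_cons.mpr ⟨Dce.fin_sound M h (hv h) f8, (List.forall_mem_cons.mpr ⟨Dce.fin_sound M h (hv h) f9, (by simp)⟩)⟩)⟩)⟩)⟩)⟩)⟩)⟩)⟩)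

theorem hE {G : Type*} [Group G] {ev : ℕ → G} {H : Subgroup G} {θ : HN.H.Grp →* G}
    (M : D.Model ev HN.H.ev θ HN.H.φ HN.H.img 1408) (h : D.Hyp ev H) :
    ∀ e ∈ E, Cover ((rcStab H (evL ev (D.gw e.1))).comap θ) ⊤ e.2 := by
  have := HN.H.finite
  exact (List.forall_mem_cons.mpr ⟨Dce.cover_one M h (hv h) (Gs := [6,7]) (by decide +kernel) s1 (by rw [HN.H.card]; decide +kernel), (List.forall_mem_cons.mpr ⟨Dce.cover_top M h (hv h) (Gs := [0,1,2]) (by decide +kernel) top, (List.forall_mem_cons.mpr ⟨Dce.cover_one M h (hv h) (Gs := [17,18,19,22,25,59]) (by decide +kernel) s2 (by rw [HN.H.card]; decide +kernel), (List.forall_mem_cons.mpr ⟨Dce.cover_one M h (hv h) (Gs := [29,30,31,41]) (by decide +kernel) s3 (by rw [HN.H.card]; decide +kernel), (List.forall_mem_cons.mpr ⟨Dce.cover_one M h (hv h) (Gs := [63,64,76,81]) (by decide +kernel) s5 (by rw [HN.H.card]; decide +kernel), (List.forall_mem_cons.mpr ⟨Dce.cover_one M h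 (hv h) (Gs := [88,89,90,102]) (by decide +kernel) s6 (by rw [HN.H.card]; decide +kernel), (List.forall_mem_cons.mpr ⟨Dce.cover_one M h (hv h) (Gs := [110,111,112,132]) (by decide +kernel) s7 (by rw [HN.H.card]; decide +kernel), (List.forall_mem_cons.mpr ⟨Dce.cover_one M h (hv h) (Gs := [167,168,176,181,184]) (by decide +kernel) s8 (by rw [HN.H.card]; decide +kernel), (List.forall_mem_cons.mpr ⟨Dce.cover_one M h (hv h) (Gs := [189,190,193,196,199]) (by decide +kernel) s9 (by rw [HN.H.card]; decide +kernel), (by simp)⟩)⟩)⟩)⟩)⟩)⟩)⟩)⟩)⟩)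

theorem model {G : Type*} [Group G] {ev : ℕ → G} {θ : H.Grp →* G}
    (hθ : ∀ l, 1 ≤ l → l < 8 → θ (H.ev l) = ev l) : D.Model ev H.ev θ H.φ H.img 1408 :=
  ⟨hθ, H.hφ, H.hφ.lt_of_gen (by norm_num) H.hX (by decide +kernel), stab, by decide +kernel⟩

theorem core {G : Type*} [Group G] {ev : ℕ → G} {θ : H.Grp →* G}
    (M : D.Model ev H.ev θ H.φ H.img 1408) (h : D.Hyp ev θ.range)
    (hU : ∀ x, D.InU ev θ.range θ (E.map Prod.fst) x) (hN : θ.range.index = 1539000)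
    (N : Subgroup G) [N.Normal] (hle : N ≤ θ.range) : N = ⊥ := by
  have := H.finite
  exact Dce.core_free (φ := H.φ) E.tail (i := 1) (k := 1408) (hE M h) hU le_rfl hN
    (Dce.genW_le M h (hv h) (Gs := [6,7]) (by decide +kernel)) s1 (by rw [H.card])
    (H.hφ.gen_le_fixS (by decide +kernel))
    (H.hφ.mem_orb (by norm_num) (W := [[5,3], [2,5,6,6,6], [2,5,6,5,3], [5,3,3,3], [2,5,3,6], [5], []]) (by decide +kernel)) H.main.2.1 N hle


end Cfsg.H6.HN.D2
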